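import Cfsg.Agent.H133.PB.AltOdd
import Cfsg.Agent.S4483
import Cfsg.Agent.H589.BD.Defs

/-!
# Characters of the alternating groups in the principal block (helper710, S4932/S4953)

* `exists_odd` : `ch β` of odd degree `d` restricts to a character of `A_n` of degree `d` in `B₀(2)`;
* `exists_b0` : `ch β` with the residues of the trivial tuple: a character of `A_n` of degree `d` or `d / 2` in `B₀(p)`;
* degrees of the tuples with two and three entries.
-/

set_option autoImplicit false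

namespace Cfsg.Agent.H710.BD

open Cfsg Cfsg.Agent Cfsg.Agent.H614 Cfsg.Agent.H133.PB Finset

theorem exists_odd {n m : ℕ} (hn : 2 ≤ n) {β : Fin m → ℕ} (hβ : StrictMono β)
    (hs : ∑ i, β i = n + ∑ i : Fin m, (i : ℕ)) {d : ℕ} (hd : FM (Multiset.replicate n 1) β = d) (hodd : Odd d) :
    ∃ θ : IrrCharacter (alternatingGroup (Fin n)), charDegree (θ : alternatingGroup (Fin n) → ℂ) = d ∧
      ∀ M : Ideal AlgInt, IsPModular 2 M → θ ∈ principalBlock M (alternatingGroup (Fin n)) := by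
  have : Nontrivial (Fin n) := Fin.nontrivial_iff_two_le.2 hn
  have hs' : ∑ i, β i = Fintype.card (Fin n) + ∑ i : Fin m, (i : ℕ) := by rw [Fintype.card_fin, hs]
  have hirr := isIrr_ch (α := Fin n) hβ hs'
  have h1 : ch (Fin n) β 1 = d := by
    rw [ch_apply, ty_one, Fintype.card_fin, hd]
    norm_cast
  obtain ⟨ψ, hψ⟩ := exists_constituent (alternatingGroup (Fin n)) hirr
  have hdeg : charDegree (ch (Fin n) β) = d := H670.PSing.charDegree_eq_of h1
  rcases restrict_two (alternatingGroup (Fin n)) alternatingGroup.index_eq_two hirr ψ.2 hψ with h3 | ⟨h3, -⟩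
  · have h4 : charDegree (ψ : alternatingGroup (Fin n) → ℂ) = d := by
      apply H670.PSing.charDegree_eq_of
      rw [← h3 1, OneMemClass.coe_one, h1]
    refine ⟨ψ, h4, fun M hM => (Cfsg.Agent.S4483.result M hM).1 ψ (fun g => ?_) (by rw [h4]; exact hodd)⟩
    rw [← h3 g, ch_apply]
    exact Complex.intCast_im _
  · exfalso
    obtain ⟨-, h5⟩ := charDegree_pos ψ.2
    rw [h1, h5] at h3
    have h6 : d = 2 * charDegree (ψ : alternatingGroup (Fin n) → ℂ) := by exact_mod_cast h3
    rw [h6] at hodd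
    exact (Nat.not_odd_iff_even.2 (even_two_mul _)) hodd

theorem exists_half {n m p : ℕ} [hp : Fact p.Prime] (hn : 2 ≤ n) {β : Fin m → ℕ} (hβ : StrictMono β)
    (hs : ∑ i, β i = n + ∑ i : Fin m, (i : ℕ)) {d : ℕ} (hd : FM (Multiset.replicate n 1) β = d)
    (hB : ∀ M : Ideal AlgInt, IsPModular p M → ∀ h : IsIrrCharacter (Equiv.Perm (Fin n)) (ch (Fin n) β),
      (⟨ch (Fin n) β, h⟩ : IrrCharacter (Equiv.Perm (Fin n))) ∈ principalBlock M (Equiv.Perm (Fin n))) :
    ∃ θ : IrrCharacter (alternatingGroup (Fin n)),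
      (∀ M : Ideal AlgInt, IsPModular p M → θ ∈ principalBlock M (alternatingGroup (Fin n))) ∧
      (charDegree (θ : alternatingGroup (Fin n) → ℂ) = d ∨ 2 * charDegree (θ : alternatingGroup (Fin n) → ℂ) = d) := by
  have : Nontrivial (Fin n) := Fin.nontrivial_iff_two_le.2 hn
  have hs' : ∑ i, β i = Fintype.card (Fin n) + ∑ i : Fin m, (i : ℕ) := by rw [Fintype.card_fin, hs]
  have hirr := isIrr_ch (α := Fin n) hβ hs'
  have h1 : ch (Fin n) β 1 = d := by
    rw [ch_apply, ty_one, Fintype.card_fin, hd]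
    norm_cast
  have hdeg : charDegree (ch (Fin n) β) = d := H670.PSing.charDegree_eq_of h1
  obtain ⟨ψ, hψ⟩ := exists_constituent (alternatingGroup (Fin n)) hirr
  refine ⟨ψ, fun M hM => ?_, ?_⟩
  · exact H611.CoverPrincipal.mem_principalBlock_of_over p hM (alternatingGroup (Fin n)) ⟨_, hirr⟩ ψ hψ (hB M hM hirr)
  · rcases degree_two (alternatingGroup (Fin n)) alternatingGroup.index_eq_two hirr ψ.2 hψ with h3 | ⟨h3, -⟩
    · left; rw [← h3, hdeg]
    · right; rw [← h3, hdeg]

theorem exists_b0 {n k p : ℕ} [hp : Fact p.Prime] (hn : 2 ≤ n) {β : Fin (k + 1) → ℕ} (hβ : StrictMono β)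
    (hs : ∑ i, β i = n + ∑ i : Fin (k + 1), (i : ℕ)) (hc : SameCol p (tr k n) β) {d : ℕ}
    (hd : FM (Multiset.replicate n 1) β = d) :
    ∃ θ : IrrCharacter (alternatingGroup (Fin n)),
      (∀ M : Ideal AlgInt, IsPModular p M → θ ∈ principalBlock M (alternatingGroup (Fin n))) ∧
      (charDegree (θ : alternatingGroup (Fin n) → ℂ) = d ∨ 2 * charDegree (θ : alternatingGroup (Fin n) → ℂ) = d) := by
  refine exists_half (p := p) hn hβ hs hd fun M hM h => ?_
  have hs' : ∑ i, β i = Fintype.card (Fin n) + ∑ i : Fin (k + 1), (i : ℕ) := by rw [Fintype.card_fin, hs]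
  have hc' : SameCol p (tr k (Fintype.card (Fin n))) β := by rw [Fintype.card_fin]; exact hc
  exact ch_mem_principalBlock (α := Fin n) hM hβ hs' hc'

/-! ### Degrees -/

theorem FM_two {n x y : ℕ} (hxy : x < y) (hs : x + y = n + 1) {d : ℕ}
    (hd : d * (x.factorial * y.factorial) = n.factorial * (y - x)) :
    StrictMono (![x, y] : Fin 2 → ℕ) ∧ ∑ i, (![x, y] : Fin 2 → ℕ) i = n + ∑ i : Fin 2, (i : ℕ) ∧
      FM (Multiset.replicate n 1) (![x, y] : Fin 2 → ℕ) = d := by
  have hsum : ∑ i, (![x, y] : Fin 2 → ℕ) i = n + ∑ i : Fin 2, (i : ℕ) := by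
    simp [Fin.sum_univ_succ]; omega
  refine ⟨?_, hsum, ?_⟩
  · intro a b hab
    fin_cases a <;> fin_cases b <;> simp_all
  · have h := FM_ones_formula n (![x, y] : Fin 2 → ℕ) hsum
    have h2 : ∏ i : Fin 2, ∏ j ∈ Finset.Ioi i, (((![x, y] : Fin 2 → ℕ) j : ℤ) - (![x, y] : Fin 2 → ℕ) i) = (y : ℤ) - x := by
      rw [Fin.prod_univ_two]
      have e0 : (Finset.Ioi (0 : Fin 2)) = {1} := by decide
      have e1 : (Finset.Ioi (1 : Fin 2)) = ∅ := by decide
      rw [e0, e1]
      simp
    rw [h2, Fin.prod_univ_two] at h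
    simp only [Matrix.cons_val_zero, Matrix.cons_val_one] at h
    have hd' : (d : ℤ) * ((x.factorial : ℤ) * y.factorial) = n.factorial * ((y : ℤ) - x) := by
      have h3 : ((d * (x.factorial * y.factorial) : ℕ) : ℤ) = ((n.factorial * (y - x) : ℕ) : ℤ) := by rw [hd]
      push_cast [Nat.cast_sub hxy.le] at h3
      exact h3
    have hpos : ((x.factorial : ℤ) * y.factorial) ≠ 0 := by
      exact_mod_cast Nat.mul_ne_zero (Nat.factorial_ne_zero _) (Nat.factorial_ne_zero _)
    exact mul_right_cancel₀ hpos (h.trans hd'.symm)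

theorem FM_three {n x y z : ℕ} (hxy : x < y) (hyz : y < z) (hs : x + y + z = n + 3) {d : ℕ}
    (hd : d * (x.factorial * y.factorial * z.factorial) = n.factorial * ((y - x) * (z - x) * (z - y))) :
    StrictMono (![x, y, z] : Fin 3 → ℕ) ∧ ∑ i, (![x, y, z] : Fin 3 → ℕ) i = n + ∑ i : Fin 3, (i : ℕ) ∧
      FM (Multiset.replicate n 1) (![x, y, z] : Fin 3 → ℕ) = d := by
  have hsum : ∑ i, (![x, y, z] : Fin 3 → ℕ) i = n + ∑ i : Fin 3, (i : ℕ) := by
    simp [Fin.sum_univ_succ]; omega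
  refine ⟨?_, hsum, ?_⟩
  · intro a b hab
    fin_cases a <;> fin_cases b <;> simp_all <;> omega
  · have h := FM_ones_formula n (![x, y, z] : Fin 3 → ℕ) hsum
    have h2 : ∏ i : Fin 3, ∏ j ∈ Finset.Ioi i, (((![x, y, z] : Fin 3 → ℕ) j : ℤ) - (![x, y, z] : Fin 3 → ℕ) i) =
        ((y : ℤ) - x) * (z - x) * (z - y) := by
      rw [Fin.prod_univ_three]
      have e0 : (Finset.Ioi (0 : Fin 3)) = {1, 2} := by decide
      have e1 : (Finset.Ioi (1 : Fin 3)) = {2} := by decide
      have e2 : (Finset.Ioi (2 : Fin 3)) = ∅ := by decide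
      rw [e0, e1, e2]
      simp
    rw [h2, Fin.prod_univ_three] at h
    simp only [Matrix.cons_val_zero, Matrix.cons_val_one, Matrix.cons_val] at h
    have hd' : (d : ℤ) * ((x.factorial : ℤ) * y.factorial * z.factorial) =
        n.factorial * (((y : ℤ) - x) * (z - x) * (z - y)) := by
      have h3 : ((d * (x.factorial * y.factorial * z.factorial) : ℕ) : ℤ) =
        ((n.factorial * ((y - x) * (z - x) * (z - y)) : ℕ) : ℤ) := by rw [hd]
      push_cast [Nat.cast_sub hxy.le, Nat.cast_sub hyz.le, Nat.cast_sub (hxy.trans hyz).le] at h3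
      exact h3
    have hpos : ((x.factorial : ℤ) * y.factorial * z.factorial) ≠ 0 := by
      exact_mod_cast Nat.mul_ne_zero (Nat.mul_ne_zero (Nat.factorial_ne_zero _) (Nat.factorial_ne_zero _))
        (Nat.factorial_ne_zero _)
    exact mul_right_cancel₀ hpos (h.trans hd'.symm)

end Cfsg.Agent.H710.BD
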