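import Cfsg.Agent.H710.BD.AltChar
import Cfsg.Agent.H589.BD.Kill
import Cfsg.Agent.H589.BD.Ex
import Cfsg.Agent.H934.OutB
import Cfsg.Agent.S2119
import Cfsg.Agent.Schreier.Alt

/-!
# `A_n`, `n ≥ 8`, at the prime 2 (helper710, S4932/S4953)
-/

set_option autoImplicit false

namespace Cfsg.Agent.H710.BD

open Cfsg Cfsg.Agent Cfsg.Agent.H614 Cfsg.Agent.H133.PB Cfsg.Agent.H589.BD Finset

universe u v

theorem inB0_comp {S : Type u} [Group S] {T : Type v} [Group T] (e : S ≃* T) {p : ℕ} [Fact p.Prime]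
    {θ : IrrCharacter T} (h : ∀ M : Ideal AlgInt, IsPModular p M → θ ∈ principalBlock M T) :
    ∃ χ : IrrCharacter S, InB0 p χ ∧ charDegree (χ : S → ℂ) = charDegree (θ : T → ℂ) := by
  refine ⟨⟨(θ : T → ℂ) ∘ e, Cfsg.Agent.Characters.Core.isIrr_comp e.toMonoidHom e.surjective θ.2⟩, fun M hM => ?_, ?_⟩
  · have : M.IsPrime := hM.2.1.isPrime
    exact mem_principalBlock_comp e.toMonoidHom e.surjective (h M hM)
  · show charDegree ((θ : T → ℂ) ∘ e) = _
    simp only [charDegree, Function.comp_apply, map_one]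

theorem nt_of_degree {G : Type*} [Group G] [Finite G] (χ : IrrCharacter G) (h : charDegree (χ : G → ℂ) ≠ 1) : NT χ := by
  refine ⟨1, fun h1 => h ?_⟩
  obtain ⟨-, h2⟩ := charDegree_pos χ.2
  rw [h2] at h1
  exact_mod_cast h1

theorem deg_1 {n : ℕ} (hn : 2 ≤ n) : StrictMono (![1, n] : Fin 2 → ℕ) ∧
    ∑ i, (![1, n] : Fin 2 → ℕ) i = n + ∑ i : Fin 2, (i : ℕ) ∧
      FM (Multiset.replicate n 1) (![1, n] : Fin 2 → ℕ) = (n - 1 : ℕ) :=
  FM_two (by omega) (by omega) (by rw [Nat.factorial_one, one_mul, mul_comm])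

theorem deg_11 {n d : ℕ} (hn : 3 ≤ n) (hd : 2 * d = (n - 1) * (n - 2)) : StrictMono (![1, 2, n] : Fin 3 → ℕ) ∧
    ∑ i, (![1, 2, n] : Fin 3 → ℕ) i = n + ∑ i : Fin 3, (i : ℕ) ∧
      FM (Multiset.replicate n 1) (![1, 2, n] : Fin 3 → ℕ) = d :=
  FM_three (by omega) (by omega) (by omega) (by
    rw [Nat.factorial_one, one_mul, Nat.factorial_two, ← mul_assoc, mul_comm d 2, hd, show 2 - 1 = 1 from rfl, one_mul,
      mul_comm])

theorem deg_3 {n d : ℕ} (hn : 6 ≤ n) (hd : 6 * d = n * (n - 1) * (n - 5)) : StrictMono (![3, n - 2] : Fin 2 → ℕ) ∧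
    ∑ i, (![3, n - 2] : Fin 2 → ℕ) i = n + ∑ i : Fin 2, (i : ℕ) ∧
      FM (Multiset.replicate n 1) (![3, n - 2] : Fin 2 → ℕ) = d := by
  obtain ⟨m, rfl⟩ := Nat.exists_eq_add_of_le hn
  have e1 : 6 + m - 2 = m + 4 := by omega
  have e2 : 6 + m - 1 = m + 5 := by omega
  have e3 : 6 + m - 5 = m + 1 := by omega
  rw [e2, e3] at hd
  rw [e1]
  refine FM_two (by omega) (by omega) ?_
  have e4 : m + 4 - 3 = m + 1 := by omega
  have e5 : (6 + m).factorial = (6 + m) * (m + 5) * (m + 4).factorial := by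
    rw [show 6 + m = m + 4 + 1 + 1 by omega, Nat.factorial_succ, Nat.factorial_succ]; ring
  rw [e4, e5, show Nat.factorial 3 = 6 from rfl]
  calc d * (6 * (m + 4).factorial) = (6 * d) * (m + 4).factorial := by ring
    _ = _ := by rw [hd]; ring

theorem deg_2 {n d : ℕ} (hn : 4 ≤ n) (hd : 2 * d = n * (n - 3)) : StrictMono (![2, n - 1] : Fin 2 → ℕ) ∧
    ∑ i, (![2, n - 1] : Fin 2 → ℕ) i = n + ∑ i : Fin 2, (i : ℕ) ∧
      FM (Multiset.replicate n 1) (![2, n - 1] : Fin 2 → ℕ) = d := by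
  obtain ⟨m, rfl⟩ := Nat.exists_eq_add_of_le hn
  have e1 : 4 + m - 1 = m + 3 := by omega
  have e2 : 4 + m - 3 = m + 1 := by omega
  rw [e2] at hd
  rw [e1]
  refine FM_two (by omega) (by omega) ?_
  have e4 : m + 3 - 2 = m + 1 := by omega
  have e5 : (4 + m).factorial = (4 + m) * (m + 3).factorial := by
    rw [show 4 + m = m + 3 + 1 by omega, Nat.factorial_succ]
  rw [e4, e5, Nat.factorial_two]
  calc d * (2 * (m + 3).factorial) = (2 * d) * (m + 3).factorial := by ring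
    _ = _ := by rw [hd]; ring

theorem deg_21 {n d : ℕ} (hn : 5 ≤ n) (hd : 3 * d = n * (n - 2) * (n - 4)) : StrictMono (![1, 3, n - 1] : Fin 3 → ℕ) ∧
    ∑ i, (![1, 3, n - 1] : Fin 3 → ℕ) i = n + ∑ i : Fin 3, (i : ℕ) ∧
      FM (Multiset.replicate n 1) (![1, 3, n - 1] : Fin 3 → ℕ) = d := by
  obtain ⟨m, rfl⟩ := Nat.exists_eq_add_of_le hn
  have e1 : 5 + m - 1 = m + 4 := by omega
  have e2 : 5 + m - 2 = m + 3 := by omega
  have e3 : 5 + m - 4 = m + 1 := by omega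
  rw [e2, e3] at hd
  rw [e1]
  refine FM_three (by omega) (by omega) (by omega) ?_
  have e4 : m + 4 - 1 = m + 3 := by omega
  have e6 : m + 4 - 3 = m + 1 := by omega
  have e5 : (5 + m).factorial = (5 + m) * (m + 4).factorial := by
    rw [show 5 + m = m + 4 + 1 by omega, Nat.factorial_succ]
  rw [e4, e6, e5, show Nat.factorial 3 = 6 from rfl, Nat.factorial_one]
  calc d * (1 * 6 * (m + 4).factorial) = 2 * (3 * d) * (m + 4).factorial := by ring
    _ = _ := by rw [hd]; ring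

theorem not_rel_two {a b : ℕ} (ha : Odd a) (hb : Odd b) (hab : a ≠ b) : ¬ Rel 2 a b := by
  rintro ⟨d, d', h1, h2, h3⟩
  rcases (Nat.dvd_prime Nat.prime_two).1 h1 with rfl | rfl <;> rcases (Nat.dvd_prime Nat.prime_two).1 h2 with rfl | rfl
  · exact hab (by simpa using h3)
  · obtain ⟨k, rfl⟩ := ha; omega
  · obtain ⟨k, rfl⟩ := hb; omega
  · exact hab (by omega)

theorem alt_simple {n : ℕ} (hn : 5 ≤ n) : IsSimpleGroup (alternatingGroup (Fin n)) :=
  alternatingGroup.isSimpleGroup (by rw [Nat.card_fin]; exact hn)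

theorem card_out_alt {n : ℕ} (hn : 5 ≤ n) (h6 : n ≠ 6) : Nat.card (Out (alternatingGroup (Fin n))) = 2 := by
  have := alt_simple hn
  have : Nontrivial (Fin n) := Fin.nontrivial_iff_two_le.2 (by omega)
  apply H934.OutB.card_out_of_aut (Schreier.Alt.not_comm hn)
  have h1 := Nat.card_congr (Equiv.ofBijective _ (Cfsg.Agent.S2119.result n (by omega) h6))
  rw [← h1, Nat.card_eq_fintype_card, Nat.card_eq_fintype_card, two_mul_card_alternatingGroup]

/-- `A_n` at the prime `2` from two odd degrees with a common divisor. -/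
theorem kill_of_odd {S : Type u} [Group S] [Finite S] [IsSimpleGroup S] (hS : SizeOK S) {n : ℕ} (hn : 8 ≤ n)
    (e : S ≃* alternatingGroup (Fin n))
    {m₁ m₂ : ℕ} {β₁ : Fin m₁ → ℕ} {β₂ : Fin m₂ → ℕ} {a b : ℕ} (h₁ : StrictMono β₁ ∧
      ∑ i, β₁ i = n + ∑ i : Fin m₁, (i : ℕ) ∧ FM (Multiset.replicate n 1) β₁ = a)
    (h₂ : StrictMono β₂ ∧ ∑ i, β₂ i = n + ∑ i : Fin m₂, (i : ℕ) ∧ FM (Multiset.replicate n 1) β₂ = b)
    (ha : Odd a) (hb : Odd b) (hab : a ≠ b) {g : ℕ} (hg : 2 < g) (ga : g ∣ a) (gb : g ∣ b) : Kill 2 S := by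
  have : Fact (Nat.Prime 2) := ⟨Nat.prime_two⟩
  have hO : Nat.card (Out S) = 2 := by
    rw [H934.OutB.card_out_congr e]; exact card_out_alt (by omega) (by omega)
  obtain ⟨α, hα, hαB⟩ := exists_odd (by omega) h₁.1 h₁.2.1 h₁.2.2 ha
  obtain ⟨β, hβ, hβB⟩ := exists_odd (by omega) h₂.1 h₂.2.1 h₂.2.2 hb
  obtain ⟨α', hα', hα''⟩ := inB0_comp e hαB
  obtain ⟨β', hβ', hβ''⟩ := inB0_comp e hβB
  rw [hα] at hα''
  rw [hβ] at hβ''
  have ha1 : 2 < a := lt_of_lt_of_le hg (Nat.le_of_dvd (Odd.pos ha) ga)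
  have hb1 : 2 < b := lt_of_lt_of_le hg (Nat.le_of_dvd (Odd.pos hb) gb)
  have hna : ¬ IsMulCommutative S := fun h => Schreier.Alt.not_comm (n := n) (by omega)
    ⟨⟨fun x y => e.symm.injective (by rw [map_mul, map_mul]; exact h.is_comm.comm _ _)⟩⟩
  have h2 : 2 ∣ Nat.card S := by
    rw [Nat.card_congr e.toEquiv]
    have h3 : 2 * Nat.card (alternatingGroup (Fin n)) = n.factorial := Schreier.Alt.card_alt (by omega)
    have h4 : Nat.factorial 4 ∣ n.factorial := Nat.factorial_dvd_factorial (by omega)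
    rw [← h3, show Nat.factorial 4 = 2 * 12 by rfl] at h4
    exact dvd_trans (by norm_num) (Nat.dvd_of_mul_dvd_mul_left (by norm_num : 0 < 2) h4)
  refine kill_common hna hS h2 α' β' hα' hβ' (nt_of_degree _ (by omega)) (nt_of_degree _ (by omega)) (g := g)
    (by rw [hO]; exact hg) (by rw [hα'']; exact ga) (by rw [hβ'']; exact gb) ?_
  rw [hO, hα'', hβ'']
  exact not_rel_two ha hb hab

theorem odd_of_mul {c d : ℕ} (h : Odd (c * d)) : Odd d := (Nat.odd_mul.1 h).2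

theorem two_lt_gcd {N b : ℕ} (h : N ∣ 3 * b) (hN : 9 ≤ N) : 2 < Nat.gcd N b := by
  have h1 : N ∣ 3 * Nat.gcd N b := by
    rw [← Nat.gcd_mul_left]
    exact Nat.dvd_gcd (dvd_mul_left _ _) h
  have h2 : 0 < Nat.gcd N b := Nat.gcd_pos_of_pos_left _ (by omega)
  have h3 := Nat.le_of_dvd (by omega) h1
  omega

/-- `A_n`, `n ≥ 8`, at the prime `2`. -/
theorem kill_two {S : Type u} [Group S] [Finite S] [IsSimpleGroup S] (hS : SizeOK S) {n : ℕ} (hn : 8 ≤ n)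
    (e : S ≃* alternatingGroup (Fin n)) : Kill 2 S := by
  obtain ⟨m, r, hr, rfl⟩ : ∃ m r, r < 4 ∧ n = 4 * m + r := ⟨n / 4, n % 4, Nat.mod_lt _ (by norm_num), by omega⟩
  have hr' : r = 0 ∨ r = 1 ∨ r = 2 ∨ r = 3 := by omega
  rcases hr' with rfl | rfl | rfl | rfl
  · -- n = 4 m
    have e1 : 4 * m + 0 - 1 = 4 * m - 1 := by omega
    have e2 : 4 * m + 0 - 2 = 2 * (2 * m - 1) := by omega
    refine kill_of_odd hS hn e (deg_1 (by omega)) (deg_11 (d := (4 * m - 1) * (2 * m - 1)) (by omega) ?_) ?_ ?_ ?_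
      (g := 4 * m - 1) (by omega) ?_ ?_
    · rw [e1, e2]; ring
    · rw [e1]; exact ⟨2 * m - 1, by omega⟩
    · exact Nat.odd_mul.2 ⟨⟨2 * m - 1, by omega⟩, ⟨m - 1, by omega⟩⟩
    · rw [e1]
      intro h
      have h3 : (4 * m - 1) * 1 < (4 * m - 1) * (2 * m - 1) := Nat.mul_lt_mul_of_pos_left (by omega) (by omega)
      omega
    · rw [e1]
    · exact dvd_mul_right _ _
  · -- n = 4 m + 1
    obtain ⟨k, rfl⟩ : ∃ k, m = k + 2 := ⟨m - 2, by omega⟩
    have e2 : 4 * (k + 2) + 1 - 2 = 4 * k + 7 := by omega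
    have e3 : 4 * (k + 2) + 1 - 3 = 2 * (2 * k + 3) := by omega
    have e4 : 4 * (k + 2) + 1 - 4 = 4 * k + 5 := by omega
    have e5 : 4 * (k + 2) + 1 = 4 * k + 9 := by omega
    have h3 : 3 ∣ (4 * k + 9) * (4 * k + 7) * (4 * k + 5) := by
      have h : k % 3 = 0 ∨ k % 3 = 1 ∨ k % 3 = 2 := by omega
      rcases h with h | h | h
      · exact dvd_mul_of_dvd_left (dvd_mul_of_dvd_left (by omega) _) _
      · exact dvd_mul_of_dvd_right (by omega) _
      · exact dvd_mul_of_dvd_left (dvd_mul_of_dvd_right (by omega) _) _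
    obtain ⟨b, hb⟩ := h3
    have hbo : Odd b := odd_of_mul (c := 3) (by
      rw [← hb]
      exact Nat.odd_mul.2 ⟨Nat.odd_mul.2 ⟨⟨2 * k + 4, by omega⟩, ⟨2 * k + 3, by omega⟩⟩, ⟨2 * k + 2, by omega⟩⟩)
    refine kill_of_odd hS hn e (deg_2 (d := (4 * k + 9) * (2 * k + 3)) (by omega) ?_) (deg_21 (d := b) (by omega) ?_)
      ?_ hbo ?_ (two_lt_gcd (N := 4 * k + 9) (b := b) ?_ (by omega)) ?_ (Nat.gcd_dvd_right _ _)
    · rw [e3, e5]; ring
    · rw [e2, e4, e5, hb]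
    · exact Nat.odd_mul.2 ⟨⟨2 * k + 4, by omega⟩, ⟨k + 1, by omega⟩⟩
    · intro h
      rw [← h] at hb
      nlinarith
    · rw [← hb, mul_assoc]; exact dvd_mul_right _ _
    · exact (Nat.gcd_dvd_left _ _).trans (dvd_mul_right _ _)
  · -- n = 4 m + 2
    obtain ⟨k, rfl⟩ : ∃ k, m = k + 2 := ⟨m - 2, by omega⟩
    have e1 : 4 * (k + 2) + 2 - 1 = 4 * k + 9 := by omega
    have e3 : 4 * (k + 2) + 2 - 5 = 4 * k + 5 := by omega
    have e5 : 4 * (k + 2) + 2 = 2 * (2 * k + 5) := by omega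
    have h3 : 3 ∣ (2 * k + 5) * (4 * k + 9) * (4 * k + 5) := by
      have h : k % 3 = 0 ∨ k % 3 = 1 ∨ k % 3 = 2 := by omega
      rcases h with h | h | h
      · exact dvd_mul_of_dvd_left (dvd_mul_of_dvd_right (by omega) _) _
      · exact dvd_mul_of_dvd_right (by omega) _
      · exact dvd_mul_of_dvd_left (dvd_mul_of_dvd_left (by omega) _) _
    obtain ⟨b, hb⟩ := h3
    have hbo : Odd b := odd_of_mul (c := 3) (by
      rw [← hb]
      exact Nat.odd_mul.2 ⟨Nat.odd_mul.2 ⟨⟨k + 2, by omega⟩, ⟨2 * k + 4, by omega⟩⟩, ⟨2 * k + 2, by omega⟩⟩)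
    refine kill_of_odd hS hn e (deg_1 (by omega)) (deg_3 (d := b) (by omega) ?_)
      ?_ hbo ?_ (two_lt_gcd (N := 4 * k + 9) (b := b) ?_ (by omega)) ?_ (Nat.gcd_dvd_right _ _)
    · rw [e1, e3, e5]
      calc 6 * b = 2 * (3 * b) := by ring
        _ = _ := by rw [← hb]; ring
    · rw [e1]; exact ⟨2 * k + 4, by omega⟩
    · rw [e1]
      intro h
      rw [← h] at hb
      have h6 : 25 ≤ (2 * k + 5) * (4 * k + 5) := by nlinarith
      have h7 : (2 * k + 5) * (4 * k + 9) * (4 * k + 5) = ((2 * k + 5) * (4 * k + 5)) * (4 * k + 9) := by ring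
      have h8 := Nat.mul_le_mul_right (4 * k + 9) h6
      omega
    · rw [← hb, mul_assoc, mul_left_comm]; exact dvd_mul_right _ _
    · rw [e1]; exact Nat.gcd_dvd_left _ _
  · -- n = 4 m + 3
    obtain ⟨k, rfl⟩ : ∃ k, m = k + 2 := ⟨m - 2, by omega⟩
    have e1 : 4 * (k + 2) + 3 - 1 = 2 * (2 * k + 5) := by omega
    have e2 : 4 * (k + 2) + 3 - 2 = 4 * k + 9 := by omega
    have e4 : 4 * (k + 2) + 3 - 4 = 4 * k + 7 := by omega
    have e5 : 4 * (k + 2) + 3 = 4 * k + 11 := by omega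
    have h3 : 3 ∣ (4 * k + 11) * (4 * k + 9) * (4 * k + 7) := by
      have h : k % 3 = 0 ∨ k % 3 = 1 ∨ k % 3 = 2 := by omega
      rcases h with h | h | h
      · exact dvd_mul_of_dvd_left (dvd_mul_of_dvd_right (by omega) _) _
      · exact dvd_mul_of_dvd_left (dvd_mul_of_dvd_left (by omega) _) _
      · exact dvd_mul_of_dvd_right (by omega) _
    obtain ⟨b, hb⟩ := h3
    have hbo : Odd b := odd_of_mul (c := 3) (by
      rw [← hb]
      exact Nat.odd_mul.2 ⟨Nat.odd_mul.2 ⟨⟨2 * k + 5, by omega⟩, ⟨2 * k + 4, by omega⟩⟩, ⟨2 * k + 3, by omega⟩⟩)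
    refine kill_of_odd hS hn e (deg_11 (d := (2 * k + 5) * (4 * k + 9)) (by omega) ?_) (deg_21 (d := b) (by omega) ?_)
      ?_ hbo ?_ (two_lt_gcd (N := 4 * k + 9) (b := b) ?_ (by omega)) ?_ (Nat.gcd_dvd_right _ _)
    · rw [e1, e2]; ring
    · rw [e2, e4, e5, hb]
    · exact Nat.odd_mul.2 ⟨⟨k + 2, by omega⟩, ⟨2 * k + 4, by omega⟩⟩
    · intro h
      rw [← h] at hb
      nlinarith
    · rw [← hb, mul_assoc, mul_left_comm]; exact dvd_mul_right _ _
    · exact (Nat.gcd_dvd_left _ _).trans (dvd_mul_left _ _)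

end Cfsg.Agent.H710.BD
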